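import Mathlib
import Cfsg.Agent.H952.RcCyc

/-!
# Cyclic `p`-subgroups of `GL(V)`, `dim V < 2 e` (helper604)

`F` a finite field with `q` elements, `p` a prime which is not zero in `F`, `e` the order of `q` modulo `p`.

* `order_le` : an element `T ≠ 1` with `T ^ p = 1` of `GL(U)` has `e ≤ dim U`;
* `isCyclic_of_lt` : if `dim V < 2 e`, every `p`-subgroup of `GL(V)` is cyclic;
* `isCyclic_gl`, `isCyclic_sl` : the same for matrices.
-/

set_option autoImplicit false
set_option linter.unusedSectionVars false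

namespace Cfsg.Agent.H604.On

open Polynomial Module Cfsg.Agent.H952.Rc

universe u v w

section Lin

variable {F : Type u} [Field F] [Fintype F] {V : Type v} [AddCommGroup V] [Module F V] [FiniteDimensional F V]
  {p : ℕ} [hp : Fact p.Prime]

/-- the dimension of a faithful module of a group of order `p` -/
theorem order_le (hpF : (p : F) ≠ 0) {T : V →ₗ[F] V} (hT : T ^ p = 1) (hT1 : T ≠ 1) :
    orderOf ((Fintype.card F : ℕ) : ZMod p) ≤ finrank F V := by
  obtain ⟨r, hcr, n, hr, hcard⟩ := FiniteField.card' F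
  have hrp := Fact.mk hr
  have hchar : (r : F) = 0 := CharP.cast_eq_zero F r
  have hcop : r.Coprime p := by
    refine (Nat.coprime_primes hr hp.out).2 ?_
    rintro rfl
    exact hpF hchar
  have hcard' : Fintype.card F = r ^ (n : ℕ) := hcard
  have hTint : IsIntegral F T := Algebra.IsIntegral.isIntegral T
  have hT0 : minpoly F T ≠ 0 := minpoly.ne_zero hTint
  have hnu : ¬ IsCoprime (minpoly F T) (cyclotomic p F) := by
    intro hc
    have h1 : minpoly F T ∣ X - 1 := hc.dvd_of_dvd_mul_left (dvd_mul hT)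
    obtain ⟨k, hk⟩ := h1
    have h2 : aeval T (X - 1 : F[X]) = 0 := by
      rw [hk, map_mul, minpoly.aeval, zero_mul]
    rw [map_sub, aeval_X, map_one, sub_eq_zero] at h2
    exact hT1 h2
  obtain ⟨f, hf, hf1, hf2⟩ : ∃ f : F[X], Irreducible f ∧ f ∣ minpoly F T ∧ f ∣ cyclotomic p F := by
    by_contra hcon
    push Not at hcon
    apply hnu
    refine isCoprime_of_irreducible_dvd (fun h => hT0 h.1) ?_
    intro z hz h1 h2
    exact hcon z hz h1 h2
  have hdeg2 := natDegree_of_dvd_cyclotomic_of_irreducible (K := F) (p := r) (f := n) (n := p) hcard' hcop hf2 hf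
  have h3 : f.natDegree ≤ (minpoly F T).natDegree := natDegree_le_of_dvd hf1 hT0
  have h4 : (minpoly F T).natDegree ≤ finrank F V := by
    rw [← LinearMap.charpoly_natDegree T]
    exact natDegree_le_of_dvd (LinearMap.minpoly_dvd_charpoly T) (LinearMap.charpoly_monic T).ne_zero
  rw [← orderOf_units, ZMod.coe_unitOfCoprime, ← hcard'] at hdeg2
  omega

/-- powers of an element trivial on `v ↦ z v - v` -/
theorem pow_apply_of_fix {z : V →ₗ[F] V} {v : V} (h : z (z v - v) = z v - v) (n : ℕ) :
    (z ^ n) v = v + (n : F) • (z v - v) := by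
  induction n with
  | zero => simp
  | succ n ih =>
    rw [pow_succ', Module.End.mul_apply, ih, map_add, map_smul, h]
    push_cast
    module

theorem eq_zero_of_fix (hpF : (p : F) ≠ 0) {z : V →ₗ[F] V} (hz : z ^ p = 1) {v : V} (h : z (z v - v) = z v - v) :
    z v - v = 0 := by
  have h3 := pow_apply_of_fix h p
  rw [hz, Module.End.one_apply] at h3
  have h4 : (p : F) • (z v - v) = 0 := by
    have : v + (p : F) • (z v - v) - v = 0 := by rw [← h3, sub_self]
    rwa [add_sub_cancel_left] at this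
  rcases smul_eq_zero.1 h4 with h5 | h5
  · exact absurd h5 hpF
  · exact h5

theorem mapQ_pow {W : Submodule F V} {h : V →ₗ[F] V} (hW : W ≤ W.comap h) (hh : h ^ p = 1) :
    (W.mapQ W h hW) ^ p = 1 := by
  have h3 : ∀ (n : ℕ) (v : V), ((W.mapQ W h hW) ^ n) (Submodule.Quotient.mk v) =
      Submodule.Quotient.mk ((h ^ n) v) := by
    intro n v
    induction n with
    | zero => rfl
    | succ n ih =>
      rw [pow_succ', pow_succ', Module.End.mul_apply, ih]
      rfl
  ext v
  change ((W.mapQ W h hW) ^ p) (Submodule.Quotient.mk v) = Submodule.Quotient.mk v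
  rw [h3, hh]
  rfl

theorem restrict_pow {W : Submodule F V} {h : V →ₗ[F] V} (hW : ∀ w ∈ W, h w ∈ W) (hh : h ^ p = 1) :
    (h.restrict hW) ^ p = 1 := by
  ext u
  rw [Module.End.pow_restrict]
  change (h ^ p) (u : V) = u
  rw [hh]
  rfl

/-- **`p`-subgroups of `GL(V)` are cyclic if `dim V < 2 e`.** -/
theorem isCyclic_of_lt (hpF : (p : F) ≠ 0) (hn : finrank F V < 2 * orderOf ((Fintype.card F : ℕ) : ZMod p))
    {P : Subgroup (V ≃ₗ[F] V)} (hP : IsPGroup p P) : IsCyclic P := by
  have hVf : Finite V := Module.finite_of_finite F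
  have hf0 : Finite (V ≃ₗ[F] V) := Finite.of_injective (fun h : V ≃ₗ[F] V => (h : V → V)) DFunLike.coe_injective
  rcases subsingleton_or_nontrivial P with hsub | hnt
  · infer_instance
  have hc := hP.center_nontrivial
  have hcp : IsPGroup p (Subgroup.center P) := hP.to_subgroup _
  have hdvd : p ∣ Nat.card (Subgroup.center P) := by
    obtain ⟨n, hn⟩ := hcp.exists_card_eq
    rcases Nat.eq_zero_or_pos n with h0 | h0
    · rw [h0, pow_zero] at hn
      exact absurd hn (Finite.one_lt_card).ne'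
    · rw [hn]
      exact dvd_pow_self p h0.ne'
  obtain ⟨z, hz⟩ := exists_prime_orderOf_dvd_card' p hdvd
  let Z : V →ₗ[F] V := ((z : P) : V ≃ₗ[F] V).toLinearMap
  have hlin : ∀ (h : V ≃ₗ[F] V) (n : ℕ) (v : V), ((h.toLinearMap) ^ n) v = (h ^ n) v := by
    intro h n v
    induction n with
    | zero => rfl
    | succ n ih => rw [pow_succ', pow_succ', Module.End.mul_apply, ih]; rfl
  have hlinp : ∀ h : V ≃ₗ[F] V, h ^ p = 1 → h.toLinearMap ^ p = 1 := by
    intro h hh
    ext v
    rw [hlin, hh]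
    rfl
  have hlin1 : ∀ h : V ≃ₗ[F] V, h.toLinearMap = 1 → h = 1 := by
    intro h hh
    apply LinearEquiv.ext
    intro v
    exact LinearMap.congr_fun hh v
  have hzV : (((z : P) : V ≃ₗ[F] V)) ^ p = 1 := by
    have h1 : z ^ p = 1 := by rw [← hz, pow_orderOf_eq_one]
    exact congrArg (fun y : Subgroup.center P => ((y : P) : V ≃ₗ[F] V)) h1
  have hZ : Z ^ p = 1 := hlinp _ hzV
  have hZ1 : Z ≠ 1 := by
    intro h
    have h1 : z = 1 := Subtype.ext (Subtype.ext (hlin1 _ h))
    rw [h1, orderOf_one] at hz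
    exact hp.out.one_lt.ne hz
  have hcomm : ∀ (h : P) (v : V), (h : V ≃ₗ[F] V) (Z v) = Z ((h : V ≃ₗ[F] V) v) := by
    intro h v
    have h1 := Subgroup.mem_center_iff.1 z.2 h
    exact congrArg (fun y : P => (y : V ≃ₗ[F] V) v) h1
  -- `W = [V, z]`
  let W : Submodule F V := LinearMap.range (Z - 1)
  have hWm : ∀ v : V, Z v - v ∈ W := fun v => ⟨v, rfl⟩
  have hWinv : ∀ (h : P), ∀ w ∈ W, (h : V ≃ₗ[F] V).toLinearMap w ∈ W := by
    rintro h _ ⟨v, rfl⟩
    refine ⟨(h : V ≃ₗ[F] V) v, ?_⟩
    change Z ((h : V ≃ₗ[F] V) v) - (h : V ≃ₗ[F] V) v = (h : V ≃ₗ[F] V) (Z v - v)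
    rw [map_sub, hcomm]
  have hWZ : ∀ w ∈ W, Z w ∈ W := hWinv (z : P)
  have hfix : ∀ w ∈ W, Z w = w → w = 0 := by
    rintro _ ⟨v, rfl⟩ h
    exact eq_zero_of_fix hpF hZ h
  let g : W →ₗ[F] W := Z.restrict hWZ
  have hg : g ^ p = 1 := restrict_pow hWZ hZ
  have hWnt : W ≠ ⊥ := by
    intro h
    apply hZ1
    ext v
    have h1 := hWm v
    rw [h, Submodule.mem_bot] at h1
    exact sub_eq_zero.1 h1
  have hg1 : g ≠ 1 := by
    intro h
    apply hWnt
    rw [Submodule.eq_bot_iff]
    intro w hw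
    exact hfix w hw (congrArg Subtype.val (LinearMap.congr_fun h ⟨w, hw⟩))
  have hWe : orderOf ((Fintype.card F : ℕ) : ZMod p) ≤ finrank F W := order_le hpF hg hg1
  have hWle : finrank F W ≤ finrank F V := Submodule.finrank_le W
  have hgsurj : Function.Surjective (g - 1 : W →ₗ[F] W) := by
    rw [← LinearMap.injective_iff_surjective, ← LinearMap.ker_eq_bot, LinearMap.ker_eq_bot']
    intro w hw
    have h1 : g w - w = 0 := hw
    have h2 : Z (w : V) = w := congrArg Subtype.val (sub_eq_zero.1 h1)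
    exact Subtype.ext (hfix w w.2 h2)
  have hirr : ∀ U : Submodule F W, (∀ w ∈ U, g w ∈ U) → U = ⊥ ∨ U = ⊤ := by
    intro U hU
    by_contra hcon
    push Not at hcon
    obtain ⟨hb, ht⟩ := hcon
    have h1 : orderOf ((Fintype.card F : ℕ) : ZMod p) ≤ finrank F U := by
      refine order_le hpF (restrict_pow hU hg) ?_
      intro h2
      apply hb
      rw [Submodule.eq_bot_iff]
      intro u hu
      have h3 : g u = u := congrArg Subtype.val (LinearMap.congr_fun h2 ⟨u, hu⟩)
      exact Subtype.ext (hfix u u.2 (congrArg Subtype.val h3))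
    have hU' : U ≤ U.comap g := hU
    have h2 : orderOf ((Fintype.card F : ℕ) : ZMod p) ≤ finrank F (W ⧸ U) := by
      refine order_le hpF (mapQ_pow hU' hg) ?_
      intro h3
      apply ht
      rw [Submodule.eq_top_iff']
      intro w
      obtain ⟨v, rfl⟩ := hgsurj w
      have h4 := LinearMap.congr_fun h3 (Submodule.Quotient.mk v)
      change (Submodule.Quotient.mk (g v) : W ⧸ U) = Submodule.Quotient.mk v at h4
      exact (Submodule.Quotient.eq U).1 h4
    have h3 := U.finrank_quotient_add_finrank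
    omega
  -- the restriction
  let ρ₀ : P →* Module.End F W :=
    { toFun := fun h => (h : V ≃ₗ[F] V).toLinearMap.restrict (hWinv h)
      map_one' := by ext w; rfl
      map_mul' := by intro a b; ext w; rfl }
  let ρ : P →* (W ≃ₗ[F] W) :=
    (LinearMap.GeneralLinearGroup.generalLinearEquiv F W).toMonoidHom.comp ρ₀.toHomUnits
  have hρ : ∀ (h : P) (w : W), ((ρ h w : W) : V) = (h : V ≃ₗ[F] V) w := fun _ _ => rfl
  have hinj : Function.Injective ρ := by
    rw [injective_iff_map_eq_one]
    by_contra hcon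
    push Not at hcon
    obtain ⟨h₀, hh₀, hne⟩ := hcon
    have hkp : IsPGroup p ρ.ker := hP.to_subgroup _
    have : Nontrivial ρ.ker := ⟨⟨⟨h₀, hh₀⟩, 1, fun h => hne (congrArg Subtype.val h)⟩⟩
    have hdk : p ∣ Nat.card ρ.ker := by
      obtain ⟨n, hn⟩ := hkp.exists_card_eq
      rcases Nat.eq_zero_or_pos n with h0 | h0
      · rw [h0, pow_zero] at hn
        exact absurd hn (Finite.one_lt_card).ne'
      · rw [hn]
        exact dvd_pow_self p h0.ne'
    obtain ⟨h, hh⟩ := exists_prime_orderOf_dvd_card' p hdk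
    let H : V →ₗ[F] V := ((h : P) : V ≃ₗ[F] V).toLinearMap
    have hhV : (((h : P) : V ≃ₗ[F] V)) ^ p = 1 := by
      have h1 : h ^ p = 1 := by rw [← hh, pow_orderOf_eq_one]
      exact congrArg (fun y : ρ.ker => ((y : P) : V ≃ₗ[F] V)) h1
    have hHp : H ^ p = 1 := hlinp _ hhV
    have hHW : ∀ w ∈ W, H w = w := by
      intro w hw
      have h1 : ρ (h : P) = 1 := h.2
      have h2 := hρ (h : P) ⟨w, hw⟩
      rw [h1] at h2
      exact h2.symm
    have hH1 : H ≠ 1 := by
      intro h1
      have h2 : h = 1 := Subtype.ext (Subtype.ext (hlin1 _ h1))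
      rw [h2, orderOf_one] at hh
      exact hp.out.one_lt.ne hh
    have hHW' : W ≤ W.comap H := fun w hw => by
      rw [Submodule.mem_comap, hHW w hw]; exact hw
    have h1 : orderOf ((Fintype.card F : ℕ) : ZMod p) ≤ finrank F (V ⧸ W) := by
      refine order_le hpF (mapQ_pow hHW' hHp) ?_
      intro h2
      apply hH1
      refine eq_one_of_unip hpF hHp hHW ?_
      intro v
      have h3 := LinearMap.congr_fun h2 (Submodule.Quotient.mk v)
      change (Submodule.Quotient.mk (H v) : V ⧸ W) = Submodule.Quotient.mk v at h3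
      exact (Submodule.Quotient.eq W).1 h3
    have h2 := W.finrank_quotient_add_finrank
    omega
  have hWN : Nontrivial W := (Submodule.nontrivial_iff_ne_bot).2 hWnt
  have hcyc : IsCyclic ρ.range := isCyclic_of_isPGroup hpF hg hg1 hirr (hP.of_surjective ρ.rangeRestrict
    ρ.rangeRestrict_surjective)
  exact isCyclic_of_injective ρ.rangeRestrict ((MonoidHom.rangeRestrict_injective_iff).2 hinj)

end Lin

section Mat

variable {F : Type u} [Field F] [Fintype F] {n p : ℕ} [hp : Fact p.Prime]

/-- `p`-subgroups of `SL_n(q)`, `n < 2 e`, are cyclic -/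
theorem isCyclic_sl (hpF : (p : F) ≠ 0) (hn : n < 2 * orderOf ((Fintype.card F : ℕ) : ZMod p))
    {P : Subgroup (Matrix.SpecialLinearGroup (Fin n) F)} (hP : IsPGroup p P) : IsCyclic P := by
  let f : Matrix.SpecialLinearGroup (Fin n) F →* ((Fin n → F) ≃ₗ[F] (Fin n → F)) :=
    Matrix.SpecialLinearGroup.toLin'
  have hf : Function.Injective f := Matrix.SpecialLinearGroup.toLin'_injective
  have h1 : IsCyclic (P.map f) := by
    refine isCyclic_of_lt hpF ?_ (hP.map f)
    rwa [Module.finrank_fin_fun]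
  exact isCyclic_of_injective (f.subgroupMap P) (by
    intro a b hab
    exact Subtype.ext (hf (congrArg Subtype.val hab)))

/-- `p`-subgroups of `GL_n(q)`, `n < 2 e`, are cyclic -/
theorem isCyclic_gl (hpF : (p : F) ≠ 0) (hn : n < 2 * orderOf ((Fintype.card F : ℕ) : ZMod p))
    {P : Subgroup (Matrix.GeneralLinearGroup (Fin n) F)} (hP : IsPGroup p P) : IsCyclic P := by
  let f : Matrix.GeneralLinearGroup (Fin n) F →* ((Fin n → F) ≃ₗ[F] (Fin n → F)) :=
    (LinearMap.GeneralLinearGroup.generalLinearEquiv F (Fin n → F)).toMonoidHom.comp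
      (Matrix.GeneralLinearGroup.toLin).toMonoidHom
  have hf : Function.Injective f :=
    (LinearMap.GeneralLinearGroup.generalLinearEquiv F (Fin n → F)).injective.comp
      (Matrix.GeneralLinearGroup.toLin).injective
  have h1 : IsCyclic (P.map f) := by
    refine isCyclic_of_lt hpF ?_ (hP.map f)
    rwa [Module.finrank_fin_fun]
  exact isCyclic_of_injective (f.subgroupMap P) (by
    intro a b hab
    exact Subtype.ext (hf (congrArg Subtype.val hab)))

end Mat

end Cfsg.Agent.H604.On
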